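import Cfsg.Agent.Lib.Helper8.Ree.F1159

/-! REE ladder, rung F2357 (helper25). -/

set_option autoImplicit false

namespace Cfsg.Agent.Lib.Helper8

open Cfsg.Agent.Lib.Helper46 Matrix

theorem f2357_orderOf_conj {G : Type*} [Group G] (x t : G) : orderOf (x * t * x⁻¹) = orderOf t := by
  have := (MulAut.conj x).orderOf_eq t
  rwa [MulAut.conj_apply] at this

theorem f2357_count {G : Type*} [Group G] [Finite G] (T : Subgroup G) (i : ℕ)
    (hTI : ∀ t ∈ T, orderOf t = i → ∀ x : G, x * t * x⁻¹ ∈ T → x ∈ Subgroup.normalizer (T : Set G))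
    (hall : ∀ g : G, orderOf g = i → ∃ x, x * g * x⁻¹ ∈ T) :
    Nat.card {g : G // orderOf g = i} * Nat.card (Subgroup.normalizer (T : Set G)) =
      Nat.card G * {t | t ∈ T ∧ orderOf t = i}.ncard := by
  have h := card_XP T (fun t => orderOf t = i) (fun x t => by rw [f2357_orderOf_conj]) hTI
  have e : XP T (fun t => orderOf t = i) = {g | orderOf g = i} := by
    ext g
    constructor
    · rintro ⟨x, t, _, h2, rfl⟩
      show orderOf _ = i
      rw [f2357_orderOf_conj]; exact h2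
    · intro hg
      obtain ⟨x, hx⟩ := hall g hg
      refine ⟨x⁻¹, _, hx, ?_, by group⟩
      show orderOf _ = i
      rw [f2357_orderOf_conj]; exact hg
  rw [e] at h
  rw [← h]
  rfl

theorem f2357_cyc {G : Type*} [Group G] [Finite G] (T : Subgroup G) (hT : IsCyclic T) {i : ℕ}
    (hi : i ∣ Nat.card T) : {t | t ∈ T ∧ orderOf t = i}.ncard = Nat.totient i := by
  classical
  haveI := Fintype.ofFinite T
  have h := IsCyclic.card_orderOf_eq_totient (α := T) (d := i) (by rwa [← Nat.card_eq_fintype_card])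
  rw [← h]
  have e : {t | t ∈ T ∧ orderOf t = i} =
      Subtype.val '' ((Finset.univ.filter (fun a : T => orderOf a = i) : Finset T) : Set T) := by
    ext t
    constructor
    · rintro ⟨h1, h2⟩
      refine ⟨⟨t, h1⟩, ?_, rfl⟩
      simp only [Finset.coe_filter, Finset.mem_univ, true_and, Set.mem_ofPred_eq]
      rw [← h2]; exact Subgroup.orderOf_mk t h1
    · rintro ⟨a, ha, rfl⟩
      simp only [Finset.coe_filter, Finset.mem_univ, true_and, Set.mem_ofPred_eq] at ha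
      exact ⟨a.2, by rw [← ha]; exact (Subgroup.orderOf_coe a)⟩
  rw [e, Set.ncard_image_of_injective _ Subtype.val_injective, Set.ncard_coe_finset]

theorem f2357_tor_TI {G : Type*} [Group G] {T : Subgroup G} (hT : IsTor T) {i : ℕ} (hi : 1 < i) :
    ∀ t ∈ T, orderOf t = i → ∀ x : G, x * t * x⁻¹ ∈ T → x ∈ Subgroup.normalizer (T : Set G) := by
  intro t ht ho x hx
  refine hT.mem_normalizer ht ?_ hx
  rintro rfl
  rw [orderOf_one] at ho
  omega

namespace ReeFull

variable {G : Type*} [Group G] {K : Type*} [Field K] (D : ReeFull G K)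

theorem f2357_types {g : G} (hg : g ≠ 1) : ((∃ x, x * g * x⁻¹ ∈ D.Us) ∧ orderOf g ∣ 9) ∨
    ((∃ x, x * g * x⁻¹ ∈ D.Hs) ∧ orderOf g ∣ D.q - 1) ∨
    ((∃ x a, a ≠ 0 ∧ x * g * x⁻¹ = D.U 0 a 0 * D.j) ∧ orderOf g = 6) ∨
    ((∃ x, x * g * x⁻¹ ∈ D.M) ∧ orderOf g ∣ (D.q + 1) / 2) ∨
    (D.IsPi g ∧ orderOf g ∣ D.q ^ 2 - D.q + 1) := by
  have := D.finite_G
  rcases D.types hg with h | h | h | h | h
  · refine Or.inl ⟨h, ?_⟩
    obtain ⟨x, hx⟩ := h
    rw [← f2357_orderOf_conj x g]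
    exact orderOf_dvd_of_pow_eq_one (D.Us_pow_nine hx)
  · refine Or.inr (Or.inl ⟨h, ?_⟩)
    obtain ⟨x, hx⟩ := h
    rw [← f2357_orderOf_conj x g, ← D.card_Hs]
    exact Subgroup.orderOf_dvd_natCard _ hx
  · refine Or.inr (Or.inr (Or.inl ⟨h, ?_⟩))
    obtain ⟨x, a, ha, hx⟩ := h
    rw [← f2357_orderOf_conj x g, hx]
    exact D.orderOf_UJ ha
  · refine Or.inr (Or.inr (Or.inr (Or.inl ⟨h, ?_⟩)))
    obtain ⟨x, hx⟩ := h
    rw [← f2357_orderOf_conj x g]
    exact orderOf_dvd_of_pow_eq_one (D.M_pow hx)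
  · exact Or.inr (Or.inr (Or.inr (Or.inr ⟨h, orderOf_dvd_of_pow_eq_one h.2⟩)))

theorem f2357_not_three_dvd_sub : ¬ 3 ∣ D.q - 1 := by
  have h1 := D.three_dvd_q
  have h2 := D.q_ge
  omega

theorem f2357_not_three_dvd_add : ¬ 3 ∣ D.q + 1 := by
  have h1 := D.three_dvd_q
  omega

theorem f2357_dvd_nine {i : ℕ} (h : i ∣ 9) : i = 1 ∨ 3 ∣ i := by
  have h1 : i ∈ Nat.divisors 9 := Nat.mem_divisors.2 ⟨h, by norm_num⟩
  have h2 : Nat.divisors 9 = {1, 3, 9} := by decide
  rw [h2] at h1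
  simp only [Finset.mem_insert, Finset.mem_singleton] at h1
  rcases h1 with rfl | rfl | rfl
  · exact Or.inl rfl
  · exact Or.inr (dvd_refl _)
  · exact Or.inr (by norm_num)

theorem f2357_pi_coprime {i : ℕ} (h : i ∣ D.q ^ 2 - D.q + 1)
    (h' : i ∣ D.q ^ 3 * (D.q - 1) * (D.q + 1)) : i = 1 :=
  Nat.eq_one_of_dvd_coprimes D.coprime_pi h h'

theorem f2357_plus_coprime {i : ℕ} (h : i ∣ (D.q + 1) / 4)
    (h' : i ∣ 2 * D.q ^ 3 * (D.q - 1) * (D.q ^ 2 - D.q + 1)) : i = 1 :=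
  Nat.eq_one_of_dvd_coprimes D.coprime_plus h h'

theorem f2357_quarter_dvd : (D.q + 1) / 4 ∣ D.q + 1 := by
  have := D.q_mod_eight
  exact Nat.div_dvd_of_dvd (by omega)

theorem f2357_half_dvd : (D.q + 1) / 2 ∣ D.q + 1 := by
  have := D.q_mod_eight
  exact Nat.div_dvd_of_dvd (by omega)

/-- elements of order dividing `q - 1`, larger than `2`, are conjugate into the torus. -/
theorem f2357_conj_Hs {i : ℕ} (h2 : 2 < i) (hi : i ∣ D.q - 1) {g : G} (hg : orderOf g = i) :
    ∃ x, x * g * x⁻¹ ∈ D.Hs := by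
  have hg1 : g ≠ 1 := by
    rintro rfl
    rw [orderOf_one] at hg; omega
  have hq := D.q_ge
  rcases D.f2357_types hg1 with h | h | h | h | h
  · exfalso
    rw [hg] at h
    rcases f2357_dvd_nine h.2 with h3 | h3
    · omega
    · exact D.f2357_not_three_dvd_sub (h3.trans hi)
  · exact h.1
  · exfalso
    rw [hg] at h
    apply D.f2357_not_three_dvd_sub
    refine Dvd.dvd.trans ?_ hi
    rw [h.2]; norm_num
  · exfalso
    rw [hg] at h
    have h3 : i ∣ D.q + 1 := h.2.trans D.f2357_half_dvd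
    have h4 : i ∣ (D.q + 1) - (D.q - 1) := Nat.dvd_sub h3 hi
    have h5 : (D.q + 1) - (D.q - 1) = 2 := by omega
    rw [h5] at h4
    have := Nat.le_of_dvd (by norm_num) h4
    omega
  · exfalso
    rw [hg] at h
    have := D.f2357_pi_coprime h.2 (Dvd.dvd.mul_right (Dvd.dvd.mul_left hi _) _)
    omega

theorem f2357_conj_M {i : ℕ} (h1 : 1 < i) (hi : i ∣ (D.q + 1) / 4) {g : G}
    (hg : orderOf g = i ∨ orderOf g = 2 * i) : ∃ x, x * g * x⁻¹ ∈ D.M := by
  have hg1 : g ≠ 1 := by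
    rintro rfl
    rw [orderOf_one] at hg; omega
  have hq := D.q_ge
  have hq8 := D.q_mod_eight
  have hio : i ∣ orderOf g := by
    rcases hg with h | h
    · rw [h]
    · rw [h]; exact Dvd.intro_left _ rfl
  have h3i : ¬ 3 ∣ i := fun h => D.f2357_not_three_dvd_add ((h.trans hi).trans D.f2357_quarter_dvd)
  have h2i : ¬ 2 ∣ i := by
    intro h
    have := h.trans hi
    omega
  rcases D.f2357_types hg1 with h | h | h | h | h
  · exfalso
    rcases f2357_dvd_nine (hio.trans h.2) with h3 | h3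
    · omega
    · exact h3i h3
  · exfalso
    have := D.f2357_plus_coprime hi (Dvd.dvd.mul_right (Dvd.dvd.mul_left (hio.trans h.2) _) _)
    omega
  · exfalso
    have h6 : i ∣ 6 := by rw [← h.2]; exact hio
    have h7 : i ∈ Nat.divisors 6 := Nat.mem_divisors.2 ⟨h6, by norm_num⟩
    have h8 : Nat.divisors 6 = {1, 2, 3, 6} := by decide
    rw [h8] at h7
    simp only [Finset.mem_insert, Finset.mem_singleton] at h7
    rcases h7 with rfl | rfl | rfl | rfl
    · omega
    · exact h2i (dvd_refl _)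
    · exact h3i (dvd_refl _)
    · exact h2i (by norm_num)
  · exact h.1
  · exfalso
    have := D.f2357_plus_coprime hi (Dvd.dvd.mul_left (hio.trans h.2) _)
    omega

theorem f2357_M_TI {t x : G} (ht : t ∈ D.M) (h2 : t * t ≠ 1) (hx : x * t * x⁻¹ ∈ D.M) :
    x ∈ Subgroup.normalizer (D.M : Set G) := by
  have e1 := D.cent_M ht h2
  have h2' : x * t * x⁻¹ * (x * t * x⁻¹) ≠ 1 := by
    intro e
    apply h2
    have : x * (t * t) * x⁻¹ = 1 := by rw [← e]; group
    have h3 : t * t = x⁻¹ * (x * (t * t) * x⁻¹) * x := by group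
    rw [h3, this]; group
  have e2 := D.cent_M hx h2'
  rw [Subgroup.mem_normalizer_iff]
  intro h
  constructor
  · intro hh
    rw [← e2, mem_centralizer_conj, e1]; exact hh
  · intro hh
    rw [← e2, mem_centralizer_conj, e1] at hh; exact hh

theorem f2357_sq_ne {t : G} {i : ℕ} (h2 : 2 < i) (ht : orderOf t = i) : t * t ≠ 1 := by
  intro e
  have : orderOf t ∣ 2 := orderOf_dvd_of_pow_eq_one (by rw [pow_two]; exact e)
  have := Nat.le_of_dvd (by norm_num) this
  omega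

theorem f2357_ar1 (q : ℕ) (hq : 1 ≤ q) : q ^ 3 + 1 = (q + 1) * (q ^ 2 - q + 1) := by
  obtain ⟨s, hs⟩ : ∃ s, s = q ^ 2 - q + 1 := ⟨_, rfl⟩
  have h1 : q ≤ q ^ 2 := Nat.le_self_pow (by norm_num) q
  have hs' : s + q = q ^ 2 + 1 := by omega
  rw [← hs]
  have : (q + 1) * (s + q) = (q + 1) * (q ^ 2 + 1) := by rw [hs']
  nlinarith [this]

theorem f2357_ar2 (q : ℕ) (hq : 1 ≤ q) : (q + 1) * (q - 1) = q ^ 2 - 1 := by
  obtain ⟨k, rfl⟩ : ∃ k, q = k + 1 := ⟨q - 1, by omega⟩
  have : (k + 1) ^ 2 = (k + 1 + 1) * k + 1 := by ring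
  rw [this]
  simp

theorem f2357_two : Nat.card {g : G // orderOf g = 2} = D.q ^ 2 * (D.q ^ 2 - D.q + 1) := by
  rw [← D.card_invol]
  have e : {t : G | t ≠ 1 ∧ t * t = 1} = {g | orderOf g = 2} := by
    ext t
    simp only [Set.mem_ofPred_eq]
    rw [orderOf_eq_prime_iff, pow_two]
    tauto
  rw [e]; rfl

theorem f2357_Us_TI {i : ℕ} (h1 : 1 < i) : ∀ t ∈ D.Us, orderOf t = i → ∀ x : G, x * t * x⁻¹ ∈ D.Us →
    x ∈ Subgroup.normalizer (D.Us : Set G) := by
  intro t ht ho x hx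
  rw [D.normalizer_Us_eq]
  refine D.mem_Bs_of_conj ht ?_ (D.Us_le_Bs hx)
  rintro rfl
  rw [orderOf_one] at ho
  omega

theorem f2357_Us_three : {t | t ∈ D.Us ∧ orderOf t = 3}.ncard = D.q ^ 2 - 1 := by
  rw [← D.card_Us_cube]
  congr 1
  ext t
  simp only [Set.mem_ofPred_eq]
  haveI : Fact (Nat.Prime 3) := ⟨by norm_num⟩
  rw [orderOf_eq_prime_iff]
  tauto

theorem f2357_Us_nine : {t | t ∈ D.Us ∧ orderOf t = 9}.ncard = D.q ^ 2 * (D.q - 1) := by
  have := D.finite_G
  have hq := D.q_ge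
  have e : (D.Us : Set G) = ({t | t ∈ D.Us ∧ orderOf t = 9} ∪ {t | t ∈ D.Us ∧ orderOf t = 3}) ∪ {1} := by
    ext t
    constructor
    · intro ht
      have h9 : orderOf t ∣ 9 := orderOf_dvd_of_pow_eq_one (D.Us_pow_nine ht)
      have h1 : orderOf t ∈ Nat.divisors 9 := Nat.mem_divisors.2 ⟨h9, by norm_num⟩
      have h2 : Nat.divisors 9 = {1, 3, 9} := by decide
      rw [h2] at h1
      simp only [Finset.mem_insert, Finset.mem_singleton] at h1
      rcases h1 with h | h | h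
      · exact Or.inr (orderOf_eq_one_iff.1 h)
      · exact Or.inl (Or.inr ⟨ht, h⟩)
      · exact Or.inl (Or.inl ⟨ht, h⟩)
    · rintro ((h | h) | h)
      · exact h.1
      · exact h.1
      · rw [Set.mem_singleton_iff.1 h]; exact one_mem _
  have hc : (D.Us : Set G).ncard = D.q ^ 3 := by
    rw [← D.card_Us]; rfl
  rw [e, Set.ncard_union_eq _ (Set.toFinite _) (Set.toFinite _),
    Set.ncard_union_eq _ (Set.toFinite _) (Set.toFinite _), D.f2357_Us_three, Set.ncard_singleton] at hc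
  · have h1 : 1 ≤ D.q ^ 2 := Nat.one_le_pow _ _ (by omega)
    have h2 : D.q ^ 3 = D.q ^ 2 * (D.q - 1) + D.q ^ 2 := by
      obtain ⟨k, hk⟩ : ∃ k, D.q = k + 1 := ⟨D.q - 1, by omega⟩
      rw [hk]; simp; ring
    omega
  · rw [Set.disjoint_left]
    rintro t ⟨_, h1⟩ ⟨_, h2⟩
    omega
  · rw [Set.disjoint_left]
    rintro t (⟨_, h1⟩ | ⟨_, h1⟩) h2
    · rw [Set.mem_singleton_iff.1 h2, orderOf_one] at h1; omega
    · rw [Set.mem_singleton_iff.1 h2, orderOf_one] at h1; omega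

theorem f2357_three : Nat.card {g : G // orderOf g = 3} = (D.q ^ 2 - 1) * (D.q ^ 3 + 1) := by
  have := D.finite_G
  have hq := D.q_ge
  have h := f2357_count D.Us 3 (D.f2357_Us_TI (by norm_num)) (fun g hg =>
    D.three_conj (k := 1) (by rw [pow_one, ← hg]; exact pow_orderOf_eq_one g))
  rw [D.normalizer_Us_eq, D.card_Bs, D.card_G, D.f2357_Us_three] at h
  apply Nat.eq_of_mul_eq_mul_right (m := D.q ^ 3 * (D.q - 1))
    (Nat.mul_pos (by positivity) (by omega))
  rw [h]; ring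

theorem f2357_nine : Nat.card {g : G // orderOf g = 9} = D.q ^ 2 * (D.q - 1) * (D.q ^ 3 + 1) := by
  have := D.finite_G
  have hq := D.q_ge
  have h := f2357_count D.Us 9 (D.f2357_Us_TI (by norm_num)) (fun g hg =>
    D.three_conj (k := 2) (by
      have : (3 : ℕ) ^ 2 = 9 := by norm_num
      rw [this, ← hg]; exact pow_orderOf_eq_one g))
  rw [D.normalizer_Us_eq, D.card_Bs, D.card_G, D.f2357_Us_nine] at h
  apply Nat.eq_of_mul_eq_mul_right (m := D.q ^ 3 * (D.q - 1))
    (Nat.mul_pos (by positivity) (by omega))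
  rw [h]; ring

theorem f2357_six : Nat.card {g : G // orderOf g = 6} = D.q ^ 2 * (D.q - 1) * (D.q ^ 3 + 1) := by
  rw [← D.card_six]
  have e : {g : G | ∃ x a, a ≠ 0 ∧ x * g * x⁻¹ = D.U 0 a 0 * D.j} = {g | orderOf g = 6} := by
    ext g
    constructor
    · rintro ⟨x, a, ha, hx⟩
      show orderOf g = 6
      rw [← f2357_orderOf_conj x g, hx]
      exact D.orderOf_UJ ha
    · intro hg
      have hg' : orderOf g = 6 := hg
      have hg1 : g ≠ 1 := by
        rintro rfl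
        rw [orderOf_one] at hg'; omega
      rcases D.f2357_types hg1 with h | h | h | h | h
      · exfalso
        rw [hg'] at h
        have := h.2
        omega
      · exfalso
        rw [hg'] at h
        exact D.f2357_not_three_dvd_sub (Dvd.dvd.trans (by norm_num) h.2)
      · exact h.1
      · exfalso
        rw [hg'] at h
        exact D.f2357_not_three_dvd_add (Dvd.dvd.trans (by norm_num) (h.2.trans D.f2357_half_dvd))
      · exfalso
        rw [hg'] at h
        have h3 : 3 ∣ D.q ^ 2 - D.q + 1 := Dvd.dvd.trans (by norm_num) h.2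
        have := D.f2357_pi_coprime h3 (Dvd.dvd.mul_right (Dvd.dvd.mul_right
          (Dvd.dvd.trans D.three_dvd_q (dvd_pow_self _ (by norm_num))) _) _)
        omega
  rw [e]; rfl

theorem f2357_minus {i : ℕ} (h2 : 2 < i) (hi : i ∣ D.q - 1) :
    2 * Nat.card {g : G // orderOf g = i} = Nat.totient i * D.q ^ 3 * (D.q ^ 3 + 1) := by
  have := D.finite_G
  have hq := D.q_ge
  have h := f2357_count D.Hs i (fun t ht ho x hx => D.Hs_TI ht (f2357_sq_ne h2 ho) hx)
    (fun g hg => D.f2357_conj_Hs h2 hi hg)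
  rw [D.card_normalizer_Hs, D.card_G, f2357_cyc D.Hs D.Hs_cyclic (by rw [D.card_Hs]; exact hi)] at h
  apply Nat.eq_of_mul_eq_mul_right (m := D.q - 1) (by omega)
  have e : 2 * Nat.card {g : G // orderOf g = i} * (D.q - 1) =
      Nat.card {g : G // orderOf g = i} * (2 * (D.q - 1)) := by ring
  rw [e, h]; ring

theorem f2357_plus {i : ℕ} (h1 : 1 < i) (hi : i ∣ (D.q + 1) / 4) :
    6 * Nat.card {g : G // orderOf g = i} = Nat.totient i * D.q ^ 3 * (D.q - 1) * (D.q ^ 2 - D.q + 1) ∧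
      2 * Nat.card {g : G // orderOf g = 2 * i} =
        Nat.totient i * D.q ^ 3 * (D.q - 1) * (D.q ^ 2 - D.q + 1) := by
  have := D.finite_G
  have hq := D.q_ge
  have hq8 := D.q_mod_eight
  have h2i : ¬ 2 ∣ i := by
    intro h
    have := h.trans hi
    omega
  have hi2 : 2 < i := by
    rcases Nat.lt_or_ge 2 i with h | h
    · exact h
    · exfalso
      have : i = 2 := by omega
      exact h2i (by rw [this])
  have ha := f2357_count D.M i (fun t ht ho x hx => D.f2357_M_TI ht (f2357_sq_ne hi2 ho) hx)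
    (fun g hg => D.f2357_conj_M h1 hi (Or.inl hg))
  have hb := f2357_count D.M (2 * i)
    (fun t ht ho x hx => D.f2357_M_TI ht (f2357_sq_ne (by omega) ho) hx)
    (fun g hg => D.f2357_conj_M h1 hi (Or.inr hg))
  rw [D.card_normalizer_M, D.card_G, (D.card_M_order hi).1, f2357_ar1 D.q (by omega)] at ha
  rw [D.card_normalizer_M, D.card_G, (D.card_M_order hi).2, f2357_ar1 D.q (by omega)] at hb
  constructor
  · apply Nat.eq_of_mul_eq_mul_right (m := D.q + 1) (by omega)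
    have e : 6 * Nat.card {g : G // orderOf g = i} * (D.q + 1) =
        Nat.card {g : G // orderOf g = i} * (6 * (D.q + 1)) := by ring
    rw [e, ha]; ring
  · apply Nat.eq_of_mul_eq_mul_right (m := 3 * (D.q + 1)) (by omega)
    have e : 2 * Nat.card {g : G // orderOf g = 2 * i} * (3 * (D.q + 1)) =
        Nat.card {g : G // orderOf g = 2 * i} * (6 * (D.q + 1)) := by ring
    rw [e, hb]; ring

theorem f2357_tor {u u' : G} {a b : ℕ} (hcyc : IsCyclic (Subgroup.centralizer ({u} : Set G)))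
    (htor : IsTor (Subgroup.centralizer ({u} : Set G)))
    (ha : Nat.card (Subgroup.centralizer ({u} : Set G)) = a)
    (hb : Nat.card (Subgroup.centralizer ({u'} : Set G)) = b) (hab : Nat.Coprime a b)
    (hprod : a * b = D.q ^ 2 - D.q + 1)
    (hn : Nat.card (Subgroup.normalizer ((Subgroup.centralizer ({u} : Set G) : Subgroup G) : Set G)) = 6 * a)
    (hset : {g : G | D.IsPi g} = XU (Subgroup.centralizer ({u} : Set G)) ∪
      XU (Subgroup.centralizer ({u'} : Set G))) {i : ℕ} (h1 : 1 < i) (hi : i ∣ a) :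
    6 * Nat.card {g : G // orderOf g = i} = Nat.totient i * D.q ^ 3 * (D.q ^ 2 - 1) * b := by
  have := D.finite_G
  have hq := D.q_ge
  have ha0 : 0 < a := by
    rw [← ha]; exact Nat.card_pos
  have h := f2357_count (Subgroup.centralizer ({u} : Set G)) i (f2357_tor_TI htor h1) (by
    intro g hg
    have hpi : D.IsPi g := by
      constructor
      · rintro rfl
        rw [orderOf_one] at hg; omega
      · apply orderOf_dvd_iff_pow_eq_one.1
        rw [hg, ← hprod]
        exact Dvd.dvd.mul_right hi _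
    have hm : g ∈ {g : G | D.IsPi g} := hpi
    rw [hset] at hm
    rcases hm with ⟨x, t, ht, _, rfl⟩ | ⟨x, t, ht, _, rfl⟩
    · refine ⟨x⁻¹, ?_⟩
      have : x⁻¹ * (x * t * x⁻¹) * x⁻¹⁻¹ = t := by group
      rw [this]; exact ht
    · exfalso
      rw [f2357_orderOf_conj] at hg
      have h3 : i ∣ b := by
        rw [← hg, ← hb]
        exact Subgroup.orderOf_dvd_natCard _ ht
      have := Nat.eq_one_of_dvd_coprimes hab hi h3
      omega)
  rw [hn, D.card_G, f2357_cyc _ hcyc (by rw [ha]; exact hi), f2357_ar1 D.q (by omega), ← hprod] at h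
  apply Nat.eq_of_mul_eq_mul_right (m := a) ha0
  have e : 6 * Nat.card {g : G // orderOf g = i} * a =
      Nat.card {g : G // orderOf g = i} * (6 * a) := by ring
  rw [e, h, ← f2357_ar2 D.q (by omega)]; ring

variable (ρ : G →* GL (Fin 7) K) (hρ : Function.Injective ρ)
include ρ hρ

/-- S2357 -/
theorem F2357 :
    Nat.card {g : G // orderOf g = 2} = D.q ^ 2 * (D.q ^ 2 - D.q + 1) ∧
    Nat.card {g : G // orderOf g = 3} = (D.q ^ 2 - 1) * (D.q ^ 3 + 1) ∧
    Nat.card {g : G // orderOf g = 6} = D.q ^ 2 * (D.q - 1) * (D.q ^ 3 + 1) ∧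
    Nat.card {g : G // orderOf g = 9} = D.q ^ 2 * (D.q - 1) * (D.q ^ 3 + 1) ∧
    (∀ i : ℕ, 2 < i → i ∣ D.q - 1 →
      2 * Nat.card {g : G // orderOf g = i} = Nat.totient i * D.q ^ 3 * (D.q ^ 3 + 1)) ∧
    (∀ i : ℕ, 1 < i → i ∣ (D.q + 1) / 4 →
      6 * Nat.card {g : G // orderOf g = i} = Nat.totient i * D.q ^ 3 * (D.q - 1) * (D.q ^ 2 - D.q + 1) ∧
        2 * Nat.card {g : G // orderOf g = 2 * i} =
          Nat.totient i * D.q ^ 3 * (D.q - 1) * (D.q ^ 2 - D.q + 1)) ∧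
    (∀ i : ℕ, 1 < i → i ∣ D.q - D.r + 1 →
      6 * Nat.card {g : G // orderOf g = i} = Nat.totient i * D.q ^ 3 * (D.q ^ 2 - 1) * (D.q + D.r + 1)) ∧
    (∀ i : ℕ, 1 < i → i ∣ D.q + D.r + 1 →
      6 * Nat.card {g : G // orderOf g = i} = Nat.totient i * D.q ^ 3 * (D.q ^ 2 - 1) * (D.q - D.r + 1)) := by
  obtain ⟨u₁, u₂, hp1, hp2, hc1, hc2, hn1, hn2, hset⟩ := D.tori_main ρ hρ
  refine ⟨D.f2357_two, D.f2357_three, D.f2357_six, D.f2357_nine, fun i h2 hi => D.f2357_minus h2 hi,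
    fun i h1 hi => D.f2357_plus h1 hi, fun i h1 hi => ?_, fun i h1 hi => ?_⟩
  · exact D.f2357_tor (D.pi_cyclic ρ hρ hp2) (D.pi_isTor ρ hρ hp2) hc2 hc1 D.coprime_pm.symm
      (by rw [mul_comm]; exact D.prod_pm) hn2 (by rw [hset, Set.union_comm]) h1 hi
  · exact D.f2357_tor (D.pi_cyclic ρ hρ hp1) (D.pi_isTor ρ hρ hp1) hc1 hc2 D.coprime_pm
      D.prod_pm hn1 hset h1 hi

end ReeFull

end Cfsg.Agent.Lib.Helper8
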