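import Cfsg.Agent.Lib.Helper8.Ree.F2357

/-! REE ladder, rung F2358 (helper25). -/

set_option autoImplicit false

namespace Cfsg.Agent.Lib.Helper8

open Cfsg.Agent.Lib.Helper46 Matrix

theorem f2358_mem_zpowers {T : Type*} [Group T] [Finite T] [IsCyclic T] {a b : T}
    (h : orderOf b = orderOf a) : b ∈ Subgroup.zpowers a := by
  classical
  have := Fintype.ofFinite T
  have hd : 0 < orderOf a := orderOf_pos a
  have h1 := IsCyclic.card_pow_eq_one_le (α := T) hd
  have hsub : (Finset.univ.filter (fun x : T => x ∈ Subgroup.zpowers a)) ⊆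
      Finset.univ.filter (fun x : T => x ^ orderOf a = 1) := by
    intro x hx
    simp only [Finset.mem_filter, Finset.mem_univ, true_and] at hx ⊢
    obtain ⟨k, rfl⟩ := hx
    show (a ^ k) ^ orderOf a = 1
    rw [← zpow_natCast, ← _root_.zpow_mul, mul_comm, _root_.zpow_mul, zpow_natCast, pow_orderOf_eq_one, _root_.one_zpow]
  have hc : (Finset.univ.filter (fun x : T => x ∈ Subgroup.zpowers a)).card = orderOf a := by
    rw [← Nat.card_zpowers, Nat.card_eq_fintype_card, Fintype.card_subtype]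
  have e := Finset.eq_of_subset_of_card_le hsub (by rw [hc]; exact h1)
  have hb : b ∈ Finset.univ.filter (fun x : T => x ^ orderOf a = 1) := by
    simp only [Finset.mem_filter, Finset.mem_univ, true_and]
    rw [← h]; exact pow_orderOf_eq_one b
  rw [← e] at hb
  simpa using hb

theorem f2358_zpowers_le {G : Type*} [Group G] [Finite G] (T : Subgroup G) (hT : IsCyclic T) {a b : G}
    (ha : a ∈ T) (hb : b ∈ T) (h : orderOf b = orderOf a) : Subgroup.zpowers b ≤ Subgroup.zpowers a := by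
  rw [Subgroup.zpowers_le]
  have h1 : (⟨b, hb⟩ : T) ∈ Subgroup.zpowers (⟨a, ha⟩ : T) :=
    f2358_mem_zpowers (by rw [Subgroup.orderOf_mk, Subgroup.orderOf_mk]; exact h)
  obtain ⟨k, hk⟩ := h1
  refine ⟨k, ?_⟩
  have := congrArg Subtype.val hk
  simpa using this

theorem f2358_gen {G : Type*} [Group G] [Finite G] (A : Subgroup G) (hA : IsCyclic A) :
    ∃ a : G, orderOf a = Nat.card A ∧ A = Subgroup.zpowers a := by
  obtain ⟨a, ha⟩ := IsCyclic.exists_ofOrder_eq_natCard (α := A)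
  refine ⟨a, by rw [Subgroup.orderOf_coe, ha], ?_⟩
  symm
  apply Subgroup.eq_of_le_of_card_ge
  · rw [Subgroup.zpowers_le]; exact a.2
  · rw [Nat.card_zpowers, Subgroup.orderOf_coe, ha]

theorem f2358_conj {G : Type*} [Group G] [Finite G] (T : Subgroup G) (hT : IsCyclic T) {d : ℕ}
    (hall : ∀ g : G, orderOf g = d → ∃ x, x * g * x⁻¹ ∈ T)
    (A B : Subgroup G) (hA : IsCyclic A) (hB : IsCyclic B) (hAd : Nat.card A = d) (hBd : Nat.card B = d) :
    ∃ g : G, B = A.map (MulAut.conj g).toMonoidHom := by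
  obtain ⟨a, ha, rfl⟩ := f2358_gen A hA
  obtain ⟨b, hb, rfl⟩ := f2358_gen B hB
  rw [hAd] at ha
  rw [hBd] at hb
  obtain ⟨x, hx⟩ := hall a ha
  obtain ⟨y, hy⟩ := hall b hb
  have e : Subgroup.zpowers (x * a * x⁻¹) = Subgroup.zpowers (y * b * y⁻¹) :=
    le_antisymm
      (f2358_zpowers_le T hT hy hx (by rw [f2357_orderOf_conj, f2357_orderOf_conj, ha, hb]))
      (f2358_zpowers_le T hT hx hy (by rw [f2357_orderOf_conj, f2357_orderOf_conj, ha, hb]))
  refine ⟨y⁻¹ * x, ?_⟩
  have e1 : (Subgroup.zpowers a).map (MulAut.conj (y⁻¹ * x)).toMonoidHom =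
      (Subgroup.zpowers (x * a * x⁻¹)).map (MulAut.conj y⁻¹).toMonoidHom := by
    rw [MonoidHom.map_zpowers, MonoidHom.map_zpowers]
    congr 1
    simp only [MulEquiv.coe_toMonoidHom, MulAut.conj_apply]
    group
  have e2 : Subgroup.zpowers b =
      (Subgroup.zpowers (y * b * y⁻¹)).map (MulAut.conj y⁻¹).toMonoidHom := by
    rw [MonoidHom.map_zpowers]
    congr 1
    simp only [MulEquiv.coe_toMonoidHom, MulAut.conj_apply]
    group
  rw [e1, e, ← e2]

namespace ReeFull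

variable {G : Type*} [Group G] {K : Type*} [Field K] (D : ReeFull G K)

theorem f2358_conj_tor {u u' : G} {a b : ℕ}
    (hb : Nat.card (Subgroup.centralizer ({u'} : Set G)) = b) (hab : Nat.Coprime a b)
    (hprod : a * b = D.q ^ 2 - D.q + 1)
    (hset : {g : G | D.IsPi g} = XU (Subgroup.centralizer ({u} : Set G)) ∪
      XU (Subgroup.centralizer ({u'} : Set G))) {i : ℕ} (h1 : 1 < i) (hi : i ∣ a) :
    ∀ g : G, orderOf g = i → ∃ x, x * g * x⁻¹ ∈ Subgroup.centralizer ({u} : Set G) := by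
  have := D.finite_G
  intro g hg
  have hpi : D.IsPi g := by
    constructor
    · rintro rfl
      rw [orderOf_one] at hg; omega
    · apply orderOf_dvd_iff_pow_eq_one.1
      rw [hg, ← hprod]
      exact Dvd.dvd.mul_right hi _
  have hm : g ∈ {g : G | D.IsPi g} := hpi
  rw [hset] at hm
  rcases hm with ⟨x, t, ht, _, rfl⟩ | ⟨x, t, ht, _, rfl⟩
  · refine ⟨x⁻¹, ?_⟩
    have : x⁻¹ * (x * t * x⁻¹) * x⁻¹⁻¹ = t := by group
    rw [this]; exact ht
  · exfalso
    rw [f2357_orderOf_conj] at hg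
    have h3 : i ∣ b := by
      rw [← hg, ← hb]
      exact Subgroup.orderOf_dvd_natCard _ ht
    have := Nat.eq_one_of_dvd_coprimes hab hi h3
    omega

variable (ρ : G →* GL (Fin 7) K) (hρ : Function.Injective ρ)
include ρ hρ

/-- S2358 -/
theorem F2358 (d : ℕ)
    (hd : d ∣ (D.q - 1) / 2 ∨ d ∣ (D.q + 1) / 4 ∨ d ∣ D.q - D.r + 1 ∨ d ∣ D.q + D.r + 1)
    (A B : Subgroup G) (hA : IsCyclic A) (hB : IsCyclic B) (hAd : Nat.card A = d) (hBd : Nat.card B = d) :
    ∃ g : G, B = A.map (MulAut.conj g).toMonoidHom := by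
  have := D.finite_G
  have hq := D.q_ge
  have hq8 := D.q_mod_eight
  have hd0 : 0 < d := by rw [← hAd]; exact Nat.card_pos
  by_cases hd1 : d = 1
  · refine ⟨1, ?_⟩
    rw [hd1] at hAd hBd
    rw [Subgroup.card_eq_one.1 hAd, Subgroup.card_eq_one.1 hBd, Subgroup.map_bot]
  have h1 : 1 < d := by omega
  obtain ⟨u₁, u₂, hp1, hp2, hc1, hc2, hn1, hn2, hset⟩ := D.tori_main ρ hρ
  rcases hd with h | h | h | h
  · have h2 : 2 < d := by
      rcases Nat.lt_or_ge 2 d with h' | h'
      · exact h'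
      · exfalso
        have e : d = 2 := by omega
        rw [e] at h
        omega
    have h3 : d ∣ D.q - 1 := h.trans (Nat.div_dvd_of_dvd (by omega))
    exact f2358_conj D.Hs D.Hs_cyclic (fun g hg => D.f2357_conj_Hs h2 h3 hg) A B hA hB hAd hBd
  · refine f2358_conj D.T0 (by unfold T0; infer_instance) (fun g hg => ?_) A B hA hB hAd hBd
    obtain ⟨x, hx⟩ := D.f2357_conj_M h1 h (Or.inl hg)
    refine ⟨x, D.mem_T0.2 ⟨hx, ?_⟩⟩
    apply orderOf_dvd_iff_pow_eq_one.1
    rw [f2357_orderOf_conj, hg]; exact h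
  · exact f2358_conj _ (D.pi_cyclic ρ hρ hp2) (D.f2358_conj_tor hc1 D.coprime_pm.symm
      (by rw [mul_comm]; exact D.prod_pm) (by rw [hset, Set.union_comm]) h1 h) A B hA hB hAd hBd
  · exact f2358_conj _ (D.pi_cyclic ρ hρ hp1) (D.f2358_conj_tor hc2 D.coprime_pm
      D.prod_pm hset h1 h) A B hA hB hAd hBd

end ReeFull

end Cfsg.Agent.Lib.Helper8
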