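import Cfsg.Agent.Lib.Helper8.Ree.Q3

/-! REE ladder, rung F2361 (helper25). -/

set_option autoImplicit false

namespace Cfsg.Agent.Lib.Helper8

open Cfsg.Agent.Lib.Helper46 Matrix

theorem f2361_le_normalizer {G : Type*} [Group G] {S T : Subgroup G}
    (h : ∀ x ∈ S, ∀ y ∈ T, x * y * x⁻¹ ∈ T) : S ≤ Subgroup.normalizer (T : Set G) := by
  intro x hx
  rw [Subgroup.mem_normalizer_iff]
  intro y
  refine ⟨h x hx y, fun hy => ?_⟩
  have := h x⁻¹ (inv_mem hx) _ hy
  have e : x⁻¹ * (x * y * x⁻¹) * x⁻¹⁻¹ = y := by group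
  rwa [e] at this

theorem f2361_three_le {G : Type*} [Group G] [Finite G] {V : Subgroup G} {a b c : G} (ha : a ∈ V)
    (hb : b ∈ V) (hc : c ∈ V) (hab : a ≠ b) (hac : a ≠ c) (hbc : b ≠ c) : 3 ≤ Nat.card V := by
  classical
  have h1 : (({a, b, c} : Finset G) : Set G) ⊆ (V : Set G) := by
    intro x hx
    simp only [Finset.coe_insert, Finset.coe_singleton, Set.mem_insert_iff,
      Set.mem_singleton_iff] at hx
    rcases hx with rfl | rfl | rfl <;> assumption
  have h2 := Set.ncard_le_ncard h1 (Set.toFinite _)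
  rw [Set.ncard_coe_finset, Finset.card_insert_of_notMem (by simp [hab, hac]),
    Finset.card_insert_of_notMem (by simpa using hbc), Finset.card_singleton] at h2
  exact h2

theorem f2361_pgroup {G : Type*} [Group G] {V : Subgroup G} {p : ℕ} (h : ∀ x ∈ V, x ^ p = 1) :
    IsPGroup p V := by
  intro x
  refine ⟨1, ?_⟩
  apply Subtype.ext
  rw [pow_one]
  exact_mod_cast h x x.2

namespace ReeFull

variable {G : Type*} [Group G] {K : Type*} [Field K] (D : ReeFull G K)

/-- the conclusion of S2361. -/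
def f2361_Good (S : Subgroup G) : Prop :=
  ∃ A : Subgroup G, S ≤ Subgroup.normalizer (A : Set G) ∧
      ((∃ P : Sylow 2 G, A = P) ∨ (∃ P : Sylow 3 G, A = P) ∨
       (IsCyclic A ∧ (Nat.card A = (D.q - 1) / 2 ∨ Nat.card A = (D.q + 1) / 4 ∨
          Nat.card A = D.q - D.r + 1 ∨ Nat.card A = D.q + D.r + 1)))

theorem f2361_transport {S : Subgroup G} (g : G)
    (h : D.f2361_Good (S.map (MulAut.conj g).toMonoidHom)) : D.f2361_Good S := by
  have := D.finite_G
  obtain ⟨A, hA, hX⟩ := h
  have hinj := (MulAut.conj g⁻¹).injective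
  refine ⟨A.map (MulAut.conj g⁻¹).toMonoidHom, ?_, ?_⟩
  · rw [← Subgroup.map_equiv_normalizer_eq]
    intro x hx
    refine ⟨g * x * g⁻¹, hA ⟨x, hx, rfl⟩, ?_⟩
    simp only [MulEquiv.coe_toMonoidHom, MulAut.conj_apply]
    group
  · rcases hX with ⟨P, rfl⟩ | ⟨P, rfl⟩ | ⟨hc, hn⟩
    · left
      exact ⟨Sylow.ofCard _ (by rw [Subgroup.card_map_of_injective hinj, P.card_eq_multiplicity]),
        (Sylow.coe_ofCard _ _).symm⟩
    · right; left
      haveI : Fact (Nat.Prime 3) := ⟨Nat.prime_three⟩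
      exact ⟨Sylow.ofCard _ (by rw [Subgroup.card_map_of_injective hinj, P.card_eq_multiplicity]),
        (Sylow.coe_ofCard _ _).symm⟩
    · right; right
      refine ⟨(Subgroup.equivMapOfInjective A _ hinj).isCyclic.1 hc, ?_⟩
      rw [Subgroup.card_map_of_injective hinj]
      exact hn

/-- an elementary abelian 2-subgroup with at least three elements. -/
theorem f2361_two {S V : Subgroup G} (he : ∀ x ∈ V, x * x = 1) (h3 : 3 ≤ Nat.card V)
    (hS : S ≤ Subgroup.normalizer (V : Set G)) : D.f2361_Good S := by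
  have := D.finite_G
  have hV : IsPGroup 2 V := f2361_pgroup (fun x hx => by rw [pow_two]; exact he x hx)
  obtain ⟨P, hVP⟩ := hV.exists_le_sylow
  have hP8 : Nat.card (P : Subgroup G) = 8 := (D.sylow2_main P).2.2.1
  obtain ⟨k, hk⟩ := hV.exists_card_eq
  have hle : Nat.card V ≤ 8 := by
    rw [← hP8]; exact Subgroup.card_le_of_le hVP
  have hk3 : k ≤ 3 := by
    by_contra hcon
    have : 2 ^ 4 ≤ 2 ^ k := Nat.pow_le_pow_right (by norm_num) (by omega)
    omega
  have hcases : Nat.card V = 4 ∨ Nat.card V = 8 := by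
    rw [hk] at h3 ⊢
    have : k = 0 ∨ k = 1 ∨ k = 2 ∨ k = 3 := by omega
    rcases this with rfl | rfl | rfl | rfl
    · norm_num at h3
    · norm_num at h3
    · left; norm_num
    · right; norm_num
  rcases hcases with h4 | h8
  · obtain ⟨A, h1, h2, h3'⟩ := D.norm_four h4 he
    exact ⟨A, hS.trans h3', Or.inr (Or.inr ⟨h1, Or.inr (Or.inl h2)⟩)⟩
  · have e : V = P := Subgroup.eq_of_le_of_card_ge hVP (by rw [hP8, h8])
    exact ⟨V, hS, Or.inl ⟨P, e⟩⟩

theorem f2361_two_group {S : Subgroup G} (he : ∀ x ∈ S, x * x = 1) : D.f2361_Good S := by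
  have hV : IsPGroup 2 S := f2361_pgroup (fun x hx => by rw [pow_two]; exact he x hx)
  obtain ⟨P, hVP⟩ := hV.exists_le_sylow
  exact ⟨P, hVP.trans Subgroup.le_normalizer, Or.inl ⟨P, rfl⟩⟩

/-- `V₁ ∪ j V₁`. -/
def f2361_V2 (V₁ : Subgroup G) (hcj : ∀ a ∈ V₁, a * D.j = D.j * a) : Subgroup G where
  carrier := {x | x ∈ V₁ ∨ D.j * x ∈ V₁}
  one_mem' := Or.inl (one_mem _)
  mul_mem' := by
    rintro a b (ha | ha) (hb | hb)
    · exact Or.inl (mul_mem ha hb)
    · right
      have : D.j * (a * b) = a * (D.j * b) := by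
        calc D.j * (a * b) = (D.j * a) * b := by group
          _ = (a * D.j) * b := by rw [hcj a ha]
          _ = _ := by group
      rw [this]; exact mul_mem ha hb
    · right
      have : D.j * (a * b) = (D.j * a) * b := by group
      rw [this]; exact mul_mem ha hb
    · left
      have h1 := hcj _ ha
      have : a * b = (D.j * a) * (D.j * b) := by
        calc a * b = (D.j * D.j) * a * b := by rw [D.j_sq, one_mul]
          _ = D.j * (D.j * a) * b := by group
          _ = (D.j * a * D.j) * b := by rw [h1]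
          _ = _ := by group
      rw [this]; exact mul_mem ha hb
  inv_mem' := by
    rintro a (ha | ha)
    · exact Or.inl (inv_mem ha)
    · right
      have h1 := hcj _ ha
      have : D.j * a⁻¹ = (D.j * a)⁻¹ := by
        have h2 : (D.j * a)⁻¹ * D.j = D.j * (D.j * a)⁻¹ := by
          calc (D.j * a)⁻¹ * D.j = (D.j * a)⁻¹ * (D.j * (D.j * a)) * (D.j * a)⁻¹ := by group
            _ = (D.j * a)⁻¹ * ((D.j * a) * D.j) * (D.j * a)⁻¹ := by rw [h1]
            _ = _ := by group
        calc D.j * a⁻¹ = D.j * ((D.j * a)⁻¹ * D.j) := by group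
          _ = D.j * (D.j * (D.j * a)⁻¹) := by rw [h2]
          _ = (D.j * D.j) * (D.j * a)⁻¹ := by group
          _ = _ := by rw [D.j_sq, one_mul]
      rw [this]; exact inv_mem ha

variable (ρ : G →* GL (Fin 7) K) (hρ : Function.Injective ρ)
include ρ hρ

/-- the odd cases. -/
theorem f2361_odd {S V : Subgroup G} {p : ℕ} (hp : p.Prime) (h2 : p ≠ 2) (hV : ∀ x ∈ V, x ^ p = 1)
    (h1 : V ≠ ⊥) (hS : S ≤ Subgroup.normalizer (V : Set G)) : D.f2361_Good S := by
  have hVp : IsPGroup p V := f2361_pgroup hV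
  by_cases h3 : p = 3
  · subst h3
    obtain ⟨P, hP⟩ := D.norm_three hVp h1
    exact ⟨P, hS.trans hP, Or.inr (Or.inl ⟨P, rfl⟩)⟩
  · have h4 : 3 < p := by
      have := hp.two_le
      omega
    obtain ⟨A, hc, hn, hA⟩ := D.norm_odd ρ hρ hp h4 hVp h1
    exact ⟨A, hS.trans hA, Or.inr (Or.inr ⟨hc, hn⟩)⟩

/-- solvable subgroups of `C(j)`. -/
theorem f2361_cj {S : Subgroup G} (hS : Group.IsSolvable S) (hSj : ∀ x ∈ S, x * D.j = D.j * x) :
    D.f2361_Good S := by
  have := D.finite_G
  have hjj := D.j_sq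
  obtain ⟨S₁, hS₁⟩ : ∃ S₁, S₁ = S ⊓ D.φ.range := ⟨_, rfl⟩
  by_cases hb : S₁ = ⊥
  · apply D.f2361_two_group
    intro x hx
    have hm : x * x ∈ S₁ := by
      rw [hS₁]
      refine Subgroup.mem_inf.2 ⟨mul_mem hx hx, ?_⟩
      obtain ⟨s, hs⟩ := D.cent_j_eq (hSj x hx)
      refine ⟨s * s, ?_⟩
      rw [map_mul]
      rcases hs with rfl | rfl
      · rfl
      · symm
        calc D.j * D.φ s * (D.j * D.φ s) = D.j * (D.φ s * D.j) * D.φ s := by group
          _ = D.j * (D.j * D.φ s) * D.φ s := by rw [D.φ_comm_j]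
          _ = (D.j * D.j) * (D.φ s * D.φ s) := by group
          _ = D.φ s * D.φ s := by rw [hjj, one_mul]
    rw [hb] at hm
    exact hm
  · have hsol : Group.IsSolvable S₁ := by
      have hle : S₁ ≤ S := by rw [hS₁]; exact inf_le_left
      exact Group.isSolvable_of_isSolvable_injective (f := Subgroup.inclusion hle)
        (Subgroup.inclusion_injective hle)
    have hN1 : S ≤ Subgroup.normalizer (S₁ : Set G) := by
      apply f2361_le_normalizer
      intro x hx y hy
      rw [hS₁] at hy ⊢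
      obtain ⟨hy1, hy2⟩ := Subgroup.mem_inf.1 hy
      refine Subgroup.mem_inf.2 ⟨mul_mem (mul_mem hx hy1) (inv_mem hx), ?_⟩
      obtain ⟨s', rfl⟩ := hy2
      obtain ⟨s, hs⟩ := D.cent_j_eq (hSj x hx)
      refine ⟨s * s' * s⁻¹, ?_⟩
      rw [map_mul, map_mul, map_inv]
      rcases hs with rfl | rfl
      · rfl
      · symm
        calc D.j * D.φ s * D.φ s' * (D.j * D.φ s)⁻¹
            = D.j * (D.φ (s * s' * s⁻¹) * D.j) * (D.j * D.j)⁻¹ := by
              rw [map_mul, map_mul, map_inv]; group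
          _ = D.j * (D.j * D.φ (s * s' * s⁻¹)) * (D.j * D.j)⁻¹ := by rw [D.φ_comm_j]
          _ = (D.j * D.j) * D.φ (s * s' * s⁻¹) * (D.j * D.j)⁻¹ := by group
          _ = D.φ s * D.φ s' * (D.φ s)⁻¹ := by
              rw [hjj, map_mul, map_mul, map_inv]; group
    obtain ⟨p, V₁, hp, hV1S, hV1, hNV, hpow, -⟩ := exists_char_elem_abelian S₁ hsol hb
    have hSV : S ≤ Subgroup.normalizer (V₁ : Set G) := hN1.trans hNV
    by_cases h2 : p = 2
    · subst h2
      have hVφ : ∀ a ∈ V₁, a ∈ D.φ.range := by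
        intro a ha
        have := hV1S ha
        rw [hS₁] at this
        exact (Subgroup.mem_inf.1 this).2
      have hcj : ∀ a ∈ V₁, a * D.j = D.j * a := by
        intro a ha
        obtain ⟨s, rfl⟩ := hVφ a ha
        exact D.φ_comm_j s
      obtain ⟨a, ha, ha1⟩ := q1_exists_ne_one hV1
      have haj : a ≠ D.j := by
        obtain ⟨s, rfl⟩ := hVφ a ha
        exact D.φ_ne_j s
      refine D.f2361_two (V := D.f2361_V2 V₁ hcj) ?_ ?_ ?_
      · rintro x (hx | hx)
        · rw [← pow_two]; exact hpow x hx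
        · have h1 := hpow _ hx
          have h3 := hcj _ hx
          rw [pow_two] at h1
          calc x * x = (D.j * D.j) * x * x := by rw [hjj, one_mul]
            _ = D.j * (D.j * x) * x := by group
            _ = (D.j * x * D.j) * x := by rw [h3]
            _ = D.j * x * (D.j * x) := by group
            _ = 1 := h1
      · exact f2361_three_le (V := D.f2361_V2 V₁ hcj) (a := 1) (b := D.j) (c := a) (one_mem _)
          (Or.inr (by rw [hjj]; exact one_mem _)) (Or.inl ha) D.j_ne_one.symm ha1.symm haj.symm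
      · apply f2361_le_normalizer
        rintro x hx y (hy | hy)
        · exact Or.inl ((Subgroup.mem_normalizer_iff.1 (hSV hx) y).1 hy)
        · right
          have h1 := (Subgroup.mem_normalizer_iff.1 (hSV hx) _).1 hy
          have e : D.j * (x * y * x⁻¹) = x * (D.j * y) * x⁻¹ := by
            calc D.j * (x * y * x⁻¹) = (D.j * x) * y * x⁻¹ := by group
              _ = (x * D.j) * y * x⁻¹ := by rw [hSj x hx]
              _ = _ := by group
          rw [e]; exact h1
    · exact D.f2361_odd ρ hρ hp h2 hpow hV1 hSV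

/-- S2361 -/
theorem F2361 (S : Subgroup G) (hS : Group.IsSolvable S) :
    ∃ A : Subgroup G, S ≤ Subgroup.normalizer (A : Set G) ∧
      ((∃ P : Sylow 2 G, A = P) ∨ (∃ P : Sylow 3 G, A = P) ∨
       (IsCyclic A ∧ (Nat.card A = (D.q - 1) / 2 ∨ Nat.card A = (D.q + 1) / 4 ∨
          Nat.card A = D.q - D.r + 1 ∨ Nat.card A = D.q + D.r + 1))) := by
  have := D.finite_G
  show D.f2361_Good S
  by_cases hb : S = ⊥
  · apply D.f2361_two_group
    intro x hx
    rw [hb, Subgroup.mem_bot] at hx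
    rw [hx, one_mul]
  obtain ⟨p, V, hp, hVS, hV1, hNV, hpow, -⟩ := exists_char_elem_abelian S hS hb
  have hSV : S ≤ Subgroup.normalizer (V : Set G) := Subgroup.le_normalizer.trans hNV
  by_cases h2 : p = 2
  · subst h2
    have he : ∀ x ∈ V, x * x = 1 := fun x hx => by rw [← pow_two]; exact hpow x hx
    by_cases h3 : 3 ≤ Nat.card V
    · exact D.f2361_two he h3 hSV
    · obtain ⟨t, ht, ht1⟩ := q1_exists_ne_one hV1
      have hcent : ∀ x ∈ S, x * t * x⁻¹ = t := by
        intro x hx
        by_contra hne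
        apply h3
        exact f2361_three_le (one_mem V) ht ((Subgroup.mem_normalizer_iff.1 (hSV hx) t).1 ht) ht1.symm
          (conj_ne_one ht1).symm (Ne.symm hne)
      obtain ⟨g, hg⟩ := D.invol_conj ht1 (he t ht)
      apply D.f2361_transport g
      apply D.f2361_cj ρ hρ
      · exact Group.isSolvable_of_isSolvable_injective
          (f := (Subgroup.equivMapOfInjective S (MulAut.conj g).toMonoidHom
            (MulAut.conj g).injective).symm.toMonoidHom)
          (MulEquiv.injective _)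
      · rintro _ ⟨x, hx, rfl⟩
        show g * x * g⁻¹ * D.j = D.j * (g * x * g⁻¹)
        rw [← hg]
        have h1 := hcent x hx
        calc g * x * g⁻¹ * (g * t * g⁻¹) = g * (x * t * x⁻¹) * x * g⁻¹ := by group
          _ = g * t * x * g⁻¹ := by rw [h1]
          _ = _ := by group
  · exact D.f2361_odd ρ hρ hp h2 hpow hV1 hSV

end ReeFull

end Cfsg.Agent.Lib.Helper8
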