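import Cfsg.Agent.Lib.Helper8.Ree.QS

/-! REE ladder, rung Q1 (helper25). -/

set_option autoImplicit false

namespace Cfsg.Agent.Lib.Helper8

open Cfsg.Agent.Lib.Helper46 Matrix

theorem q1_exists_ne_one {G : Type*} [Group G] {V : Subgroup G} (h1 : V ≠ ⊥) : ∃ v : G, v ∈ V ∧ v ≠ 1 := by
  obtain ⟨a, h⟩ := Subgroup.ne_bot_iff_exists_ne_one.1 h1
  exact ⟨a, a.2, fun e => h (Subtype.ext e)⟩

namespace ReeFull

variable {G : Type*} [Group G] {K : Type*} [Field K] (D : ReeFull G K)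

include D in
theorem norm_three {V : Subgroup G} (hV : IsPGroup 3 V) (h1 : V ≠ ⊥) : ∃ P : Sylow 3 G,
    Subgroup.normalizer (V : Set G) ≤ Subgroup.normalizer ((P : Subgroup G) : Set G) := by
  have := D.finite_G
  have hq := D.q_ge
  obtain ⟨P, hVP⟩ := hV.exists_le_sylow
  have hidx : ¬ 3 ∣ D.Us.index := by
    rw [f1156_index (N := (D.q ^ 3 + 1) * (D.q - 1)) D.card_Us (by positivity) (by rw [D.card_G]; ring)]
    intro h
    rcases (Nat.Prime.dvd_mul Nat.prime_three).1 h with h | h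
    · have h3 : 3 ∣ D.q ^ 3 := Dvd.dvd.trans D.three_dvd_q (dvd_pow_self _ (by norm_num))
      have := (Nat.dvd_add_right h3).1 h
      omega
    · exact D.f2359_not_three_dvd_sub h
  obtain ⟨g, hg⟩ := conj_into_sub D.Us Nat.prime_three hidx P P.isPGroup'
  have hUs : IsPGroup 3 D.Us :=
    IsPGroup.of_card (n := (2 * D.m + 1) * 3) (by rw [D.card_Us]; unfold q; rw [pow_mul])
  have hPQ : (P : Subgroup G) ≤ D.Us.map (MulAut.conj g⁻¹).toMonoidHom := by
    intro x hx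
    refine ⟨g * x * g⁻¹, hg x hx, ?_⟩
    simp only [MulEquiv.coe_toMonoidHom, MulAut.conj_apply]
    group
  have e := P.is_maximal' (hUs.map _) hPQ
  refine ⟨P, ?_⟩
  rw [← e, ← Subgroup.map_equiv_normalizer_eq, D.normalizer_Us_eq]
  intro x hx
  obtain ⟨v, hv, hv1⟩ := q1_exists_ne_one h1
  have h2 : x * v * x⁻¹ ∈ V := (Subgroup.mem_normalizer_iff.1 hx v).1 hv
  have h3 := hg _ (hVP hv)
  have h4 := hg _ (hVP h2)
  have h5 : g * x * g⁻¹ ∈ D.Bs := by
    refine D.mem_Bs_of_conj h3 (conj_ne_one hv1) (D.Us_le_Bs ?_)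
    have e2 : g * x * g⁻¹ * (g * v * g⁻¹) * (g * x * g⁻¹)⁻¹ = g * (x * v * x⁻¹) * g⁻¹ := by group
    rw [e2]; exact h4
  refine ⟨g * x * g⁻¹, h5, ?_⟩
  simp only [MulEquiv.coe_toMonoidHom, MulAut.conj_apply]
  group

end ReeFull

end Cfsg.Agent.Lib.Helper8
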