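import Cfsg.Agent.Lib.Helper8.Ree.Q1

/-! REE ladder, rung Q2 (helper25). -/

set_option autoImplicit false

namespace Cfsg.Agent.Lib.Helper8

open Cfsg.Agent.Lib.Helper46 Matrix

theorem q2_eq_one {G : Type*} [Group G] {w : G} (h2 : w * w = 1) (h9 : w ^ 9 = 1) : w = 1 := by
  have h8 : w ^ 8 = 1 := by
    have : w ^ 8 = (w * w) ^ 4 := by rw [← pow_two, ← pow_mul]
    rw [this, h2, one_pow]
  have : w ^ 9 = w ^ 8 * w := pow_succ w 8
  rw [h9, h8, one_mul] at this
  exact this.symm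

theorem q2_comm {G : Type*} [Group G] {a b : G} (ha : a * a = 1) (hb : b * b = 1)
    (hab : a * b * (a * b) = 1) : a * b = b * a := by
  have h1 : a⁻¹ = a := inv_eq_of_mul_eq_one_left ha
  have h2 : b⁻¹ = b := inv_eq_of_mul_eq_one_left hb
  have h3 : (a * b)⁻¹ = a * b := inv_eq_of_mul_eq_one_left hab
  rw [← h3, _root_.mul_inv_rev, h1, h2]

/-- four distinct elements of a set with four elements exhaust it. -/
theorem q2_four {G : Type*} {W : Set G} (hW : W.ncard = 4) {a b c d : G} (ha : a ∈ W) (hb : b ∈ W)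
    (hc : c ∈ W) (hd : d ∈ W) (hab : a ≠ b) (hac : a ≠ c) (had : a ≠ d) (hbc : b ≠ c) (hbd : b ≠ d)
    (hcd : c ≠ d) : W = {a, b, c, d} := by
  classical
  have hfin : W.Finite := Set.finite_of_ncard_ne_zero (by rw [hW]; norm_num)
  symm
  apply Set.eq_of_subset_of_ncard_le _ _ hfin
  · intro x hx
    simp only [Set.mem_insert_iff, Set.mem_singleton_iff] at hx
    rcases hx with rfl | rfl | rfl | rfl <;> assumption
  · rw [hW]
    have : ({a, b, c, d} : Set G) = (({a, b, c, d} : Finset G) : Set G) := by simp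
    rw [this, Set.ncard_coe_finset]
    rw [Finset.card_insert_of_notMem, Finset.card_insert_of_notMem, Finset.card_insert_of_notMem,
      Finset.card_singleton]
    · simpa using hcd
    · simp [hbc, hbd]
    · simp [hab, hac, had]

namespace ReeFull

variable {G : Type*} [Group G] {K : Type*} [Field K] (D : ReeFull G K)

theorem q2_invol_Bs {b : G} (hb : b ∈ D.Bs) (h2 : b * b = 1) (h1 : b ≠ 1) (hj : b * D.j = D.j * b) :
    b = D.j := by
  rcases D.type_Bs hb with h | ⟨y, hy, h⟩ | ⟨y, hy, a, ha, h⟩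
  · exact absurd (q2_eq_one h2 (D.Us_pow_nine h)) h1
  · have h3 : y * b * y⁻¹ * (y * b * y⁻¹) = 1 := by
      have : y * b * y⁻¹ * (y * b * y⁻¹) = y * (b * b) * y⁻¹ := by group
      rw [this, h2]; group
    rcases D.Hs_sq h h3 with h4 | h4
    · exact absurd h4 (conj_ne_one h1)
    · have hb' : b = y⁻¹ * D.j * y := by rw [← h4]; group
      have hw : D.j * b ∈ D.Us := by
        have e : D.j * b = (D.j * y⁻¹ * D.j⁻¹) * y := by
          rw [hb', D.pk4_j_inv]; group
        rw [e]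
        exact mul_mem (D.pk4_j_conj_mem (inv_mem hy)) hy
      have hw2 : D.j * b * (D.j * b) = 1 := by
        calc D.j * b * (D.j * b) = D.j * (b * D.j) * b := by group
          _ = D.j * (D.j * b) * b := by rw [hj]
          _ = (D.j * D.j) * (b * b) := by group
          _ = 1 := by rw [D.j_sq, h2, one_mul]
      have hw1 := q2_eq_one hw2 (D.Us_pow_nine hw)
      have : b = D.j⁻¹ := eq_inv_of_mul_eq_one_right hw1
      rw [this, D.pk4_j_inv]
  · exfalso
    have h6 := D.orderOf_UJ ha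
    rw [← h, f2359_orderOf_conj] at h6
    have : orderOf b ∣ 2 := orderOf_dvd_of_pow_eq_one (by rw [pow_two]; exact h2)
    rw [h6] at this
    omega

theorem q2_key {y b : G} (hb : b ∈ D.M) (hb1 : b ≠ 1) (hbj : b ≠ D.j) (hyj : y * D.j = D.j * y)
    (hyb : y * b = b * y) (hy : y ^ ((D.q + 1) / 4) = 1) : y ∈ D.M := by
  have hq8 := D.q_mod_eight
  have hjj := D.j_sq
  obtain ⟨β, hβ, hβb⟩ := D.mem_M.1 hb
  obtain ⟨s, hs⟩ := D.cent_j_eq hyj
  have hxs : D.φ s = y ∨ D.φ s = D.j * y := by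
    rcases hs with rfl | rfl
    · exact Or.inl rfl
    · right; rw [← mul_assoc, hjj, one_mul]
  have hβb' : D.φ β = b ∨ D.φ β = D.j * b := by
    rcases hβb with rfl | rfl
    · exact Or.inl rfl
    · right; rw [← mul_assoc, hjj, one_mul]
  have hbj' : b * D.j = D.j * b := D.M_comm hb D.j_mem_M
  have h3 : D.φ s * D.φ β = D.φ β * D.φ s := by
    rcases hxs with h | h <;> rcases hβb' with h' | h' <;> rw [h, h']
    · exact hyb
    · calc y * (D.j * b) = (y * D.j) * b := by group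
        _ = D.j * (y * b) := by rw [hyj]; group
        _ = D.j * b * y := by rw [hyb]; group
    · calc D.j * y * b = D.j * (y * b) := by group
        _ = (D.j * b) * y := by rw [hyb]; group
        _ = b * (D.j * y) := by rw [← hbj']; group
    · calc D.j * y * (D.j * b) = D.j * (y * D.j) * b := by group
        _ = D.j * D.j * (y * b) := by rw [hyj]; group
        _ = D.j * (D.j * b) * y := by rw [hyb]; group
        _ = D.j * (b * D.j) * y := by rw [hbj']
        _ = D.j * b * (D.j * y) := by group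
  have h1 : D.φ (s * β * s⁻¹ * β⁻¹) = 1 := by
    rw [map_mul, map_mul, map_mul, h3, map_inv, map_inv]; group
  have hss : (s * s) * β = β * (s * s) := by
    rcases D.φ_eq_one_iff.1 h1 with h4 | h4
    · have e : s * β = β * s := by
        have : s * β = (s * β * s⁻¹ * β⁻¹) * (β * s) := by group
        rw [this, h4, one_mul]
      calc s * s * β = s * (s * β) := by group
        _ = s * (β * s) := by rw [e]
        _ = (s * β) * s := by group
        _ = (β * s) * s := by rw [e]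
        _ = β * (s * s) := by group
    · have e : s * β = negOne * (β * s) := by
        have : s * β = (s * β * s⁻¹ * β⁻¹) * (β * s) := by group
        rw [this, h4]
      calc s * s * β = s * (s * β) := by group
        _ = s * (negOne * (β * s)) := by rw [e]
        _ = (s * negOne) * (β * s) := by group
        _ = (negOne * s) * (β * s) := by rw [negOne_comm]
        _ = negOne * ((s * β) * s) := by group
        _ = negOne * ((negOne * (β * s)) * s) := by rw [e]
        _ = (negOne * negOne) * (β * (s * s)) := by group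
        _ = β * (s * s) := by rw [negOne_mul_self, one_mul]
  have hβc : β ∉ Subgroup.center (SpecialLinearGroup (Fin 2) K) := by
    intro hc
    have hφ : D.φ β = 1 := D.φ_eq_one_iff.2 (eq_one_or_negOne_of_mem_center β hc)
    rcases hβb with h | h
    · exact hb1 (by rw [h, hφ])
    · exact hbj (by rw [h, hφ, mul_one])
  have hmem : s * s ∈ Subgroup.zpowers D.X0 := by
    rw [← D.mb_torus.1 β hβ hβc, Subgroup.mem_centralizer_singleton_iff]
    exact hss
  have hyy : y * y = D.φ (s * s) := by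
    rw [map_mul]
    rcases hs with rfl | rfl
    · rfl
    · calc D.j * D.φ s * (D.j * D.φ s) = D.j * (D.φ s * D.j) * D.φ s := by group
        _ = D.j * (D.j * D.φ s) * D.φ s := by rw [D.φ_comm_j]
        _ = (D.j * D.j) * (D.φ s * D.φ s) := by group
        _ = D.φ s * D.φ s := by rw [hjj, one_mul]
  have hyyM : y * y ∈ D.M := by
    rw [hyy]; exact D.mem_M.2 ⟨_, hmem, Or.inl rfl⟩
  obtain ⟨c, hc⟩ : ∃ c, (D.q + 1) / 4 = 2 * c + 1 := ⟨((D.q + 1) / 4) / 2, by omega⟩
  have : y = (y * y) ^ (c + 1) := by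
    rw [← pow_two, ← pow_mul]
    have e : 2 * (c + 1) = (2 * c + 1) + 1 := by ring
    rw [e, pow_succ, ← hc, hy, one_mul]
  rw [this]
  exact pow_mem hyyM _

/-- the normaliser of the four-group of `M` normalises `T0`. -/
theorem q2_norm {W : Subgroup G} (hW : ∀ x, x ∈ W ↔ x ∈ D.M ∧ x * x = 1) {b : G} (hb : b ∈ W)
    (hb1 : b ≠ 1) (hbj : b ≠ D.j) :
    Subgroup.normalizer (W : Set G) ≤ Subgroup.normalizer (D.T0 : Set G) := by
  have hjW : D.j ∈ W := (hW _).2 ⟨D.j_mem_M, D.j_sq⟩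
  have hst : ∀ x ∈ Subgroup.normalizer (W : Set G), ∀ t ∈ D.T0, x * t * x⁻¹ ∈ D.T0 := by
    intro x hx t ht
    have htM := (D.mem_T0.1 ht).1
    have hcomm : ∀ w ∈ W, x * t * x⁻¹ * w = w * (x * t * x⁻¹) := by
      intro w hw
      have h1 : x⁻¹ * w * x⁻¹⁻¹ ∈ W := (Subgroup.mem_normalizer_iff.1 (inv_mem hx) w).1 hw
      have h2 := D.M_comm htM ((hW _).1 h1).1
      calc x * t * x⁻¹ * w = x * (t * (x⁻¹ * w * x⁻¹⁻¹)) * x⁻¹ := by group
        _ = x * ((x⁻¹ * w * x⁻¹⁻¹) * t) * x⁻¹ := by rw [h2]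
        _ = w * (x * t * x⁻¹) := by group
    have hpow : (x * t * x⁻¹) ^ ((D.q + 1) / 4) = 1 := by
      rw [conj_pow, (D.mem_T0.1 ht).2]; group
    exact D.mem_T0.2 ⟨D.q2_key ((hW _).1 hb).1 hb1 hbj (hcomm _ hjW) (hcomm _ hb) hpow, hpow⟩
  intro x hx
  rw [Subgroup.mem_normalizer_iff]
  intro t
  refine ⟨hst x hx t, fun h => ?_⟩
  have := hst x⁻¹ (inv_mem hx) _ h
  have e : x⁻¹ * (x * t * x⁻¹) * x⁻¹⁻¹ = t := by group
  rwa [e] at this

theorem norm_four {V : Subgroup G} (hc : Nat.card V = 4) (he : ∀ x ∈ V, x * x = 1) :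
    ∃ A : Subgroup G, IsCyclic A ∧ Nat.card A = (D.q + 1) / 4 ∧
      Subgroup.normalizer (V : Set G) ≤ Subgroup.normalizer (A : Set G) := by
  classical
  have := D.finite_G
  obtain ⟨t, ht, ht1⟩ := q1_exists_ne_one (V := V) (f2359_ne_bot (by rw [hc]; norm_num))
  -- a second involution
  obtain ⟨t₁, ht₁, h11, h1t⟩ : ∃ t₁ ∈ V, t₁ ≠ 1 ∧ t₁ ≠ t := by
    by_contra hcon
    push Not at hcon
    have hsub : (V : Set G) ⊆ {1, t} := by
      intro x hx
      by_cases hx1 : x = 1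
      · left; exact hx1
      · right; exact hcon x hx hx1
    have h1 : (V : Set G).ncard ≤ ({1, t} : Set G).ncard := Set.ncard_le_ncard hsub (Set.toFinite _)
    have h2 : ({1, t} : Set G).ncard = 2 := Set.ncard_pair ht1.symm
    have h3 : (V : Set G).ncard = 4 := by rw [← hc]; rfl
    omega
  obtain ⟨g₀, hg₀⟩ := D.invol_conj ht1 (he t ht)
  have hcomm : t₁ * t = t * t₁ := q2_comm (he _ ht₁) (he _ ht) (he _ (mul_mem ht₁ ht))
  have hu : g₀ * t₁ * g₀⁻¹ * D.j = D.j * (g₀ * t₁ * g₀⁻¹) := by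
    rw [← hg₀]
    calc g₀ * t₁ * g₀⁻¹ * (g₀ * t * g₀⁻¹) = g₀ * (t₁ * t) * g₀⁻¹ := by group
      _ = g₀ * (t * t₁) * g₀⁻¹ := by rw [hcomm]
      _ = _ := by group
  obtain ⟨s, hs⟩ := D.type_cent_j hu
  obtain ⟨g, hg⟩ : ∃ g, g = D.φ s * g₀ := ⟨_, rfl⟩
  have hgt : g * t * g⁻¹ = D.j := by
    have : g * t * g⁻¹ = D.φ s * (g₀ * t * g₀⁻¹) * (D.φ s)⁻¹ := by rw [hg]; group
    rw [this, hg₀, D.φ_comm_j]; group
  obtain ⟨b, hbdef⟩ : ∃ b, b = g * t₁ * g⁻¹ := ⟨_, rfl⟩
  have hb' : D.φ s * (g₀ * t₁ * g₀⁻¹) * (D.φ s)⁻¹ = b := by rw [hbdef, hg]; group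
  rw [hb'] at hs
  have hb1 : b ≠ 1 := by rw [hbdef]; exact conj_ne_one h11
  have hbj : b ≠ D.j := by
    rw [hbdef, ← hgt]
    intro e
    exact h1t (mul_left_cancel (mul_right_cancel e))
  have hb2 : b * b = 1 := by
    have : b * b = g * (t₁ * t₁) * g⁻¹ := by rw [hbdef]; group
    rw [this, he _ ht₁]; group
  have hbjc : b * D.j = D.j * b := by
    rw [hbdef, ← hgt]
    calc g * t₁ * g⁻¹ * (g * t * g⁻¹) = g * (t₁ * t) * g⁻¹ := by group
      _ = g * (t * t₁) * g⁻¹ := by rw [hcomm]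
      _ = _ := by group
  have hbM : b ∈ D.M := by
    rcases hs with h | h
    · exact absurd (D.q2_invol_Bs h hb2 hb1 hbjc) hbj
    · exact h
  obtain ⟨W, hWdef⟩ : ∃ W, W = V.map (MulAut.conj g).toMonoidHom := ⟨_, rfl⟩
  have hjW : D.j ∈ W := by rw [hWdef, ← hgt]; exact ⟨t, ht, rfl⟩
  have hbW : b ∈ W := by rw [hWdef, hbdef]; exact ⟨t₁, ht₁, rfl⟩
  have hWc : (W : Set G).ncard = 4 := by
    have : Nat.card W = 4 := by
      rw [hWdef, Subgroup.card_map_of_injective (MulAut.conj g).injective, hc]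
    rw [← this]; rfl
  have hjb1 : D.j * b ≠ 1 := by
    intro e
    apply hbj
    have : b = D.j⁻¹ := eq_inv_of_mul_eq_one_right e
    rw [this, D.pk4_j_inv]
  have hjbj : D.j * b ≠ D.j := by
    intro e
    exact hb1 (mul_eq_left.1 e)
  have hjbb : D.j * b ≠ b := by
    intro e
    exact D.j_ne_one (mul_eq_right.1 e)
  have e1 := q2_four hWc (one_mem W) hjW hbW (mul_mem hjW hbW) D.j_ne_one.symm hb1.symm hjb1.symm
    hbj.symm hjbj.symm hjbb.symm
  have hjb2 : D.j * b * (D.j * b) = 1 := by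
    calc D.j * b * (D.j * b) = D.j * (b * D.j) * b := by group
      _ = D.j * (D.j * b) * b := by rw [hbjc]
      _ = (D.j * D.j) * (b * b) := by group
      _ = 1 := by rw [D.j_sq, hb2, one_mul]
  have e2 := q2_four D.card_M_sq (a := 1) (b := D.j) (c := b) (d := D.j * b)
    ⟨one_mem _, one_mul 1⟩ ⟨D.j_mem_M, D.j_sq⟩ ⟨hbM, hb2⟩ ⟨mul_mem D.j_mem_M hbM, hjb2⟩
    D.j_ne_one.symm hb1.symm hjb1.symm hbj.symm hjbj.symm hjbb.symm
  have hW : ∀ x, x ∈ W ↔ x ∈ D.M ∧ x * x = 1 := by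
    intro x
    have h1 : x ∈ (W : Set G) ↔ x ∈ {t | t ∈ D.M ∧ t * t = 1} := by rw [e1, e2]
    exact h1
  have hN := D.q2_norm hW hbW hb1 hbj
  refine ⟨D.T0.map (MulAut.conj g⁻¹).toMonoidHom, ?_, ?_, ?_⟩
  · exact (Subgroup.equivMapOfInjective D.T0 (MulAut.conj g⁻¹).toMonoidHom
      (MulAut.conj g⁻¹).injective).isCyclic.1 (by unfold T0; infer_instance)
  · rw [Subgroup.card_map_of_injective (MulAut.conj g⁻¹).injective, D.card_T0]
  · rw [← Subgroup.map_equiv_normalizer_eq]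
    intro x hx
    have h1 : g * x * g⁻¹ ∈ Subgroup.normalizer (W : Set G) := by
      rw [hWdef, ← Subgroup.map_equiv_normalizer_eq]
      exact ⟨x, hx, rfl⟩
    refine ⟨g * x * g⁻¹, hN h1, ?_⟩
    simp only [MulEquiv.coe_toMonoidHom, MulAut.conj_apply]
    group

end ReeFull

end Cfsg.Agent.Lib.Helper8
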