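import Cfsg.Agent.Lib.Helper8.Ree.Q2

/-! REE ladder, rung Q3 (helper25). -/

set_option autoImplicit false

namespace Cfsg.Agent.Lib.Helper8

open Cfsg.Agent.Lib.Helper46 Matrix

theorem q3_sub {G : Type*} [Group G] [Finite G] (A : Subgroup G) (hA : IsCyclic A) {d : ℕ}
    (hd : d ∣ Nat.card A) : ∃ A₀ : Subgroup G, A₀ ≤ A ∧ IsCyclic A₀ ∧ Nat.card A₀ = d := by
  obtain ⟨a, ha, e⟩ := f2359_gen A hA
  refine ⟨Subgroup.zpowers (a ^ (orderOf a / d)), ?_, inferInstance, ?_⟩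
  · rw [Subgroup.zpowers_le]
    rw [e]
    exact pow_mem (Subgroup.mem_zpowers a) _
  · rw [Nat.card_zpowers]
    exact orderOf_pow_orderOf_div (orderOf_pos a).ne' (by rw [ha]; exact hd)

namespace ReeFull

variable {G : Type*} [Group G] {K : Type*} [Field K] (D : ReeFull G K)

variable (ρ : G →* GL (Fin 7) K) (hρ : Function.Injective ρ)
include ρ hρ

theorem q3_step {V : Subgroup G} (hVc : IsCyclic V) (h1 : V ≠ ⊥) {n N : ℕ}
    (hF : ∃ A : Subgroup G, IsCyclic A ∧ Nat.card A = n ∧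
        Nat.card (Subgroup.normalizer (A : Set G)) = N ∧
        ∀ A₀ : Subgroup G, A₀ ≤ A → A₀ ≠ ⊥ →
          Subgroup.normalizer (A₀ : Set G) = Subgroup.normalizer (A : Set G))
    (hd : Nat.card V ∣ n)
    (hd' : Nat.card V ∣ (D.q - 1) / 2 ∨ Nat.card V ∣ (D.q + 1) / 4 ∨ Nat.card V ∣ D.q - D.r + 1 ∨
      Nat.card V ∣ D.q + D.r + 1) :
    ∃ A : Subgroup G, IsCyclic A ∧ Nat.card A = n ∧
      Subgroup.normalizer (V : Set G) ≤ Subgroup.normalizer (A : Set G) := by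
  have := D.finite_G
  obtain ⟨A, hAc, hAn, _, hAll⟩ := hF
  obtain ⟨A₀, h0, h0c, h0d⟩ := q3_sub A hAc (d := Nat.card V) (by rw [hAn]; exact hd)
  obtain ⟨g, hg⟩ := D.F2358 ρ hρ (Nat.card V) hd' A₀ V h0c hVc h0d rfl
  have hne : A₀ ≠ ⊥ := by
    rintro rfl
    apply h1
    rw [hg, Subgroup.map_bot]
  refine ⟨A.map (MulAut.conj g).toMonoidHom, ?_, ?_, ?_⟩
  · exact (Subgroup.equivMapOfInjective A (MulAut.conj g).toMonoidHom
      (MulAut.conj g).injective).isCyclic.1 hAc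
  · rw [Subgroup.card_map_of_injective (MulAut.conj g).injective, hAn]
  · rw [hg, ← Subgroup.map_equiv_normalizer_eq, ← Subgroup.map_equiv_normalizer_eq, hAll A₀ h0 hne]

theorem norm_odd {p : ℕ} (hp : p.Prime) (h3 : 3 < p) {V : Subgroup G} (hV : IsPGroup p V) (h1 : V ≠ ⊥) :
    ∃ A : Subgroup G, IsCyclic A ∧ (Nat.card A = (D.q - 1) / 2 ∨ Nat.card A = (D.q + 1) / 4 ∨
      Nat.card A = D.q - D.r + 1 ∨ Nat.card A = D.q + D.r + 1) ∧
      Subgroup.normalizer (V : Set G) ≤ Subgroup.normalizer (A : Set G) := by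
  have := D.finite_G
  have hq := D.q_ge
  have hq8 := D.q_mod_eight
  haveI : Fact p.Prime := ⟨hp⟩
  obtain ⟨P, hVP⟩ := hV.exists_le_sylow
  have hPc := D.F1156 ρ hρ h3 P
  have hVc : IsCyclic V := isCyclic_of_injective (Subgroup.inclusion hVP) (Subgroup.inclusion_injective _)
  obtain ⟨k, hk⟩ := hV.exists_card_eq
  have hk0 : k ≠ 0 := by
    rintro rfl
    rw [pow_zero] at hk
    exact h1 (Subgroup.card_eq_one.1 hk)
  have hdG : p ^ k ∣ Nat.card G := by rw [← hk]; exact Subgroup.card_subgroup_dvd_card V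
  have hpG : p ∣ Nat.card G := (dvd_pow_self p hk0).trans hdG
  have hG := D.card_G
  rw [f1156_ar1] at hG
  have hF := D.F1158 ρ hρ
  by_cases hA : p ∣ (D.q - 1) / 2
  · have hc : Nat.Coprime (p ^ k) (2 * D.q ^ 3 * (D.q + 1) * (D.q ^ 2 - D.q + 1)) :=
      Nat.Coprime.pow_left k (Nat.Coprime.coprime_dvd_left hA D.coprime_minus)
    have e2 : D.q - 1 = 2 * ((D.q - 1) / 2) := by omega
    have hd : p ^ k ∣ (D.q - 1) / 2 := by
      apply Nat.Coprime.dvd_of_dvd_mul_left hc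
      have e : 2 * D.q ^ 3 * (D.q + 1) * (D.q ^ 2 - D.q + 1) * ((D.q - 1) / 2) = Nat.card G := by
        rw [hG]
        generalize (D.q - 1) / 2 = c at e2 ⊢
        rw [e2]; ring
      rw [e]; exact hdG
    rw [← hk] at hd
    obtain ⟨A, h1', h2', h3'⟩ := D.q3_step ρ hρ hVc h1 (hF ((D.q - 1) / 2, 2 * (D.q - 1)) (by simp)) hd
      (Or.inl hd)
    exact ⟨A, h1', Or.inl h2', h3'⟩
  by_cases hB : p ∣ (D.q + 1) / 4
  · have hc : Nat.Coprime (p ^ k) (2 * D.q ^ 3 * (D.q - 1) * (D.q ^ 2 - D.q + 1)) :=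
      Nat.Coprime.pow_left k (Nat.Coprime.coprime_dvd_left hB D.coprime_plus)
    have hc2 : Nat.Coprime (p ^ k) 2 := by
      apply Nat.Coprime.pow_left
      rw [Nat.coprime_primes hp Nat.prime_two]; omega
    have e4 : D.q + 1 = 4 * ((D.q + 1) / 4) := by omega
    have hd : p ^ k ∣ (D.q + 1) / 4 := by
      apply Nat.Coprime.dvd_of_dvd_mul_left (hc2.mul_right hc)
      have e : 2 * (2 * D.q ^ 3 * (D.q - 1) * (D.q ^ 2 - D.q + 1)) * ((D.q + 1) / 4) = Nat.card G := by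
        rw [hG]
        generalize (D.q + 1) / 4 = c at e4 ⊢
        rw [e4]; ring
      rw [e]; exact hdG
    rw [← hk] at hd
    obtain ⟨A, h1', h2', h3'⟩ := D.q3_step ρ hρ hVc h1 (hF ((D.q + 1) / 4, 6 * (D.q + 1)) (by simp)) hd
      (Or.inr (Or.inl hd))
    exact ⟨A, h1', Or.inr (Or.inl h2'), h3'⟩
  by_cases hC : p ∣ D.q + D.r + 1
  · have hc : Nat.Coprime (p ^ k) (D.q ^ 3 * (D.q - 1) * (D.q + 1)) :=
      Nat.Coprime.pow_left k (Nat.Coprime.coprime_dvd_left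
        (by rw [← D.prod_pm]; exact Dvd.dvd.mul_right hC _) D.coprime_pi)
    have hc2 : Nat.Coprime (p ^ k) (D.q - D.r + 1) :=
      Nat.Coprime.pow_left k (Nat.Coprime.coprime_dvd_left hC D.coprime_pm)
    have hd : p ^ k ∣ D.q + D.r + 1 := by
      apply Nat.Coprime.dvd_of_dvd_mul_left (hc.mul_right hc2)
      have e : D.q ^ 3 * (D.q - 1) * (D.q + 1) * (D.q - D.r + 1) * (D.q + D.r + 1) = Nat.card G := by
        rw [hG, ← D.prod_pm]; ring
      rw [e]; exact hdG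
    rw [← hk] at hd
    obtain ⟨A, h1', h2', h3'⟩ := D.q3_step ρ hρ hVc h1
      (hF (D.q + D.r + 1, 6 * (D.q + D.r + 1)) (by simp)) hd (Or.inr (Or.inr (Or.inr hd)))
    exact ⟨A, h1', Or.inr (Or.inr (Or.inr h2')), h3'⟩
  by_cases hD : p ∣ D.q - D.r + 1
  · have hc : Nat.Coprime (p ^ k) (D.q ^ 3 * (D.q - 1) * (D.q + 1)) :=
      Nat.Coprime.pow_left k (Nat.Coprime.coprime_dvd_left
        (by rw [← D.prod_pm]; exact Dvd.dvd.mul_left hD _) D.coprime_pi)
    have hc2 : Nat.Coprime (p ^ k) (D.q + D.r + 1) :=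
      Nat.Coprime.pow_left k (Nat.Coprime.coprime_dvd_left hD D.coprime_pm.symm)
    have hd : p ^ k ∣ D.q - D.r + 1 := by
      apply Nat.Coprime.dvd_of_dvd_mul_left (hc.mul_right hc2)
      have e : D.q ^ 3 * (D.q - 1) * (D.q + 1) * (D.q + D.r + 1) * (D.q - D.r + 1) = Nat.card G := by
        rw [hG, ← D.prod_pm]; ring
      rw [e]; exact hdG
    rw [← hk] at hd
    obtain ⟨A, h1', h2', h3'⟩ := D.q3_step ρ hρ hVc h1
      (hF (D.q - D.r + 1, 6 * (D.q - D.r + 1)) (by simp)) hd (Or.inr (Or.inr (Or.inl hd)))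
    exact ⟨A, h1', Or.inr (Or.inr (Or.inl h2')), h3'⟩
  · exfalso
    rw [D.card_G_eq] at hpG
    rcases (Nat.Prime.dvd_mul hp).1 hpG with h | h
    · have h8 : (8 : ℕ) = 2 ^ 3 := by norm_num
      rw [h8] at h
      have := Nat.le_of_dvd (by norm_num) (hp.dvd_of_dvd_pow h)
      omega
    rcases (Nat.Prime.dvd_mul hp).1 h with h | h
    · rcases (Nat.Prime.dvd_mul hp).1 h with h | h
      · rcases (Nat.Prime.dvd_mul hp).1 h with h | h
        · have h3' : p ∣ 3 := by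
            have := hp.dvd_of_dvd_pow h
            unfold q at this
            exact hp.dvd_of_dvd_pow this
          have := Nat.le_of_dvd (by norm_num) h3'
          omega
        · exact hA h
      · exact hB h
    · rw [← D.prod_pm] at h
      rcases (Nat.Prime.dvd_mul hp).1 h with h | h
      · exact hC h
      · exact hD h

end ReeFull

end Cfsg.Agent.Lib.Helper8
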