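import Cfsg.Agent.Lib.Helper8.Ree.F2358

/-! REE ladder, rung QS (helper25). -/

set_option autoImplicit false

namespace Cfsg.Agent.Lib.Helper8

open Cfsg.Agent.Lib.Helper46 Matrix

/-- the derived series of a subgroup, inside the ambient group. -/
def qs_ds {G : Type*} [Group G] (S : Subgroup G) : ℕ → Subgroup G
  | 0 => S
  | n + 1 => ⁅qs_ds S n, qs_ds S n⁆

theorem qs_map {G : Type*} [Group G] (S : Subgroup G) (n : ℕ) :
    (derivedSeries S n).map S.subtype = qs_ds S n := by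
  induction n with
  | zero =>
    show (⊤ : Subgroup S).map S.subtype = S
    rw [← MonoidHom.range_eq_map, Subgroup.range_subtype]
  | succ n ih =>
    rw [derivedSeries_succ, Subgroup.map_commutator, ih]
    rfl

theorem qs_le {G : Type*} [Group G] (S : Subgroup G) (n : ℕ) : qs_ds S n ≤ S := by
  rw [← qs_map]
  exact Subgroup.map_subtype_le _

theorem qs_stable {G : Type*} [Group G] (S : Subgroup G) {g : G}
    (hg : g ∈ Subgroup.normalizer (S : Set G)) (n : ℕ) :
    (qs_ds S n).map (MulAut.conj g).toMonoidHom ≤ qs_ds S n := by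
  induction n with
  | zero =>
    rintro _ ⟨x, hx, rfl⟩
    exact (Subgroup.mem_normalizer_iff.1 hg x).1 hx
  | succ n ih =>
    show (⁅qs_ds S n, qs_ds S n⁆).map _ ≤ ⁅qs_ds S n, qs_ds S n⁆
    rw [Subgroup.map_commutator]
    exact Subgroup.commutator_mono ih ih

/-- a non-trivial solvable subgroup has a non-trivial characteristic elementary abelian subgroup. -/
theorem exists_char_elem_abelian {G : Type*} [Group G] [Finite G] (S : Subgroup G) (hS : Group.IsSolvable S)
    (h1 : S ≠ ⊥) : ∃ (p : ℕ) (V : Subgroup G), p.Prime ∧ V ≤ S ∧ V ≠ ⊥ ∧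
      Subgroup.normalizer (S : Set G) ≤ Subgroup.normalizer (V : Set G) ∧
      (∀ x ∈ V, x ^ p = 1) ∧ (∀ x ∈ V, ∀ y ∈ V, x * y = y * x) := by
  classical
  have hex : ∃ n, qs_ds S n = ⊥ := by
    obtain ⟨n, hn⟩ := hS.solvable
    exact ⟨n, by rw [← qs_map, hn, Subgroup.map_bot]⟩
  have hn0 : Nat.find hex ≠ 0 := by
    intro e
    have := Nat.find_spec hex
    rw [e] at this
    exact h1 this
  obtain ⟨k, hk⟩ := Nat.exists_eq_succ_of_ne_zero hn0
  have hA : qs_ds S k ≠ ⊥ := Nat.find_min hex (by omega)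
  have hA' : ⁅qs_ds S k, qs_ds S k⁆ = ⊥ := by
    have := Nat.find_spec hex
    rw [hk] at this
    exact this
  obtain ⟨A, hAdef⟩ : ∃ A, A = qs_ds S k := ⟨_, rfl⟩
  rw [← hAdef] at hA hA'
  have hcomm : ∀ x ∈ A, ∀ y ∈ A, x * y = y * x := by
    intro x hx y hy
    have := Subgroup.commutator_eq_bot_iff_le_centralizer.1 hA' hx
    exact ((Subgroup.mem_centralizer_iff.1 this) y hy).symm
  have hc1 : Nat.card A ≠ 1 := fun e => hA (Subgroup.card_eq_one.1 e)
  obtain ⟨p, hp, hpd⟩ := Nat.exists_prime_and_dvd hc1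
  haveI : Fact p.Prime := ⟨hp⟩
  obtain ⟨a, ha⟩ := exists_prime_orderOf_dvd_card' (G := A) p hpd
  let V : Subgroup G :=
    { carrier := {x | x ∈ A ∧ x ^ p = 1}
      mul_mem' := by
        rintro x y ⟨hx, hx'⟩ ⟨hy, hy'⟩
        refine ⟨mul_mem hx hy, ?_⟩
        rw [(show Commute x y from hcomm x hx y hy).mul_pow, hx', hy', one_mul]
      one_mem' := ⟨one_mem _, one_pow _⟩
      inv_mem' := by
        rintro x ⟨hx, hx'⟩
        exact ⟨inv_mem hx, by rw [inv_pow, hx', inv_one]⟩ }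
  have hst : ∀ g ∈ Subgroup.normalizer (S : Set G), ∀ x ∈ V, g * x * g⁻¹ ∈ V := by
    rintro g hg x ⟨hx, hx'⟩
    refine ⟨?_, by rw [conj_pow, hx']; group⟩
    rw [hAdef] at hx ⊢
    exact qs_stable S hg k ⟨x, hx, rfl⟩
  refine ⟨p, V, hp, ?_, ?_, ?_, fun x hx => hx.2, fun x hx y hy => hcomm x hx.1 y hy.1⟩
  · intro x hx
    have := hx.1
    rw [hAdef] at this
    exact qs_le S k this
  · intro e
    have hm : (a : G) ∈ V := by
      refine ⟨a.2, ?_⟩
      have := pow_orderOf_eq_one a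
      rw [ha] at this
      exact_mod_cast congrArg Subtype.val this
    rw [e, Subgroup.mem_bot] at hm
    have : a = 1 := Subtype.ext hm
    rw [this, orderOf_one] at ha
    exact hp.one_lt.ne ha
  · intro g hg
    rw [Subgroup.mem_normalizer_iff]
    intro x
    refine ⟨hst g hg x, fun h => ?_⟩
    have := hst g⁻¹ (inv_mem hg) _ h
    have e : g⁻¹ * (g * x * g⁻¹) * g⁻¹⁻¹ = x := by group
    rwa [e] at this

end Cfsg.Agent.Lib.Helper8
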